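import Mathlib

/-! In a primitive linear group the non-identity elements of an abelian normal subgroup fix no
non-zero vector. -/

set_option autoImplicit false
set_option linter.unusedSectionVars false
set_option linter.style.longLine false

open Finset

namespace Cfsg.Agent.Lib.FixSpace

variable {F V Γ : Type*} [Field F] [AddCommGroup V] [Module F V] [Group Γ]

/-- No family of at least two non-zero independent subspaces spanning everything, all of equal
dimension, is permuted. -/
def Primitive (ρ : Γ →* Module.End F V) : Prop :=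
  ∀ (t : ℕ) (D : Fin t → Submodule F V), 2 ≤ t → (∀ i, D i ≠ ⊥) →
    (∀ i j, Module.finrank F (D i) = Module.finrank F (D j)) → iSupIndep D → iSup D = ⊤ →
    ¬ ∀ g, ∃ σ : Equiv.Perm (Fin t), ∀ i, (D i).map (ρ g) = D (σ i)

/-- Only the trivial subspaces are invariant. -/
def Irred (ρ : Γ →* Module.End F V) : Prop :=
  ∀ W : Submodule F V, (∀ g, W.map (ρ g) ≤ W) → W = ⊥ ∨ W = ⊤

variable {ρ : Γ →* Module.End F V}

theorem inv_apply (g : Γ) (v : V) : ρ g⁻¹ (ρ g v) = v := by
  rw [← Module.End.mul_apply, ← map_mul, inv_mul_cancel, map_one]; rfl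

theorem apply_inv (g : Γ) (v : V) : ρ g (ρ g⁻¹ v) = v := by
  rw [← Module.End.mul_apply, ← map_mul, mul_inv_cancel, map_one]; rfl

variable [Finite Γ] [Finite F] [FiniteDimensional F V]

theorem order_ne_zero (hirr : Irred ρ) (hinj : Function.Injective ρ) (A : Subgroup Γ) [hA : A.Normal]
    (hcomm : ∀ x ∈ A, ∀ y ∈ A, x * y = y * x) {a : Γ} (ha : a ∈ A) : (orderOf a : F) ≠ 0 := by
  obtain ⟨p, hp⟩ := CharP.exists F
  haveI hpr : Fact p.Prime := ⟨CharP.char_is_prime F p⟩
  rw [ne_eq, CharP.cast_eq_zero_iff F p]
  intro hdvd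
  let b := a ^ (orderOf a / p)
  have hb : orderOf b = p := orderOf_pow_orderOf_div (orderOf_pos a).ne' hdvd
  let Q : Subgroup Γ :=
    { carrier := {x | x ∈ A ∧ x ^ p = 1}
      one_mem' := ⟨A.one_mem, one_pow _⟩
      mul_mem' := fun {x y} hx hy => ⟨A.mul_mem hx.1 hy.1, by
        rw [Commute.mul_pow (hcomm x hx.1 y hy.1), hx.2, hy.2, one_mul]⟩
      inv_mem' := fun {x} hx => ⟨A.inv_mem hx.1, by rw [inv_pow, hx.2, inv_one]⟩ }
  have hbQ : b ∈ Q := ⟨A.pow_mem ha _, by rw [← hb]; exact pow_orderOf_eq_one _⟩
  let W : Submodule F V := ⨅ x ∈ Q, LinearMap.ker (ρ x - 1)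
  have hmem : ∀ v, v ∈ W ↔ ∀ x ∈ Q, ρ x v = v := fun v => by
    simp [W, Submodule.mem_iInf, sub_eq_zero]
  have hinv : ∀ g, W.map (ρ g) ≤ W := by
    rintro g _ ⟨v, hv, rfl⟩
    rw [hmem]
    intro x hx
    have hx' : g⁻¹ * x * g ∈ Q := ⟨by simpa using hA.conj_mem x hx.1 g⁻¹, by
      have := conj_pow (a := g⁻¹) (b := x) (i := p)
      rw [inv_inv, hx.2, mul_one, inv_mul_cancel] at this
      exact this⟩
    have h := congrArg (ρ g) ((hmem v).mp hv _ hx')
    rwa [map_mul, map_mul, Module.End.mul_apply, Module.End.mul_apply, apply_inv] at h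
  have hne : W ≠ ⊥ := by
    intro hW
    haveI : Finite V := Module.finite_of_finite F
    letI : MulAction Q V :=
      { smul := fun x v => ρ x v
        one_smul := fun v => show ρ ((1 : Q) : Γ) v = v by rw [OneMemClass.coe_one, map_one]; rfl
        mul_smul := fun x y v => show ρ ((x * y : Q) : Γ) v = ρ x (ρ y v) by
          rw [Subgroup.coe_mul, map_mul]; rfl }
    have hQp : IsPGroup p Q := fun x => ⟨1, Subtype.ext (by simpa using x.2.2)⟩
    have hntriv : Nontrivial V := by
      by_contra h
      rw [not_nontrivial_iff_subsingleton] at h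
      haveI := h
      have : b = 1 := hinj (LinearMap.ext fun v => Subsingleton.elim _ _)
      rw [this, orderOf_one] at hb
      exact hpr.out.ne_one hb.symm
    have hpV : p ∣ Nat.card V := by
      rw [Module.natCard_eq_pow_finrank (K := F)]
      haveI := Fintype.ofFinite F
      obtain ⟨n, -, hn⟩ := FiniteField.card F p
      exact dvd_pow (by rw [Nat.card_eq_fintype_card, hn]; exact dvd_pow_self p n.ne_zero)
        Module.finrank_pos.ne'
    have h0 : (0 : V) ∈ MulAction.fixedPoints Q V := fun x => map_zero (ρ x)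
    obtain ⟨v, hv, hv0⟩ := hQp.exists_fixed_point_of_prime_dvd_card_of_fixed_point V hpV h0
    refine hv0.symm ?_
    have : v ∈ W := (hmem v).mpr fun x hx => hv ⟨x, hx⟩
    rw [hW] at this
    exact (Submodule.mem_bot F).mp this
  have htop := (hirr W hinv).resolve_left hne
  have hb1 : b = 1 := hinj (LinearMap.ext fun v => by
    rw [map_one]; exact (hmem v).mp (htop ▸ Submodule.mem_top) b hbQ)
  rw [hb1, orderOf_one] at hb
  exact hpr.out.ne_one hb.symm

/-- The averaging idempotent of an element. -/
noncomputable def avg {A : Type*} [CommGroup A] (a : A) : MonoidAlgebra F A :=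
  (orderOf a : F)⁻¹ • ∑ i ∈ range (orderOf a), MonoidAlgebra.of F A (a ^ i)

theorem of_mul_sum {A : Type*} [CommGroup A] (a : A) :
    MonoidAlgebra.of F A a * ∑ i ∈ range (orderOf a), MonoidAlgebra.of F A (a ^ i) =
      ∑ i ∈ range (orderOf a), MonoidAlgebra.of F A (a ^ i) := by
  rw [mul_sum]
  have e := sum_range_succ (fun i => MonoidAlgebra.of F A (a ^ i)) (orderOf a)
  rw [sum_range_succ'] at e
  simp only [← map_mul, ← pow_succ']
  rw [pow_orderOf_eq_one, pow_zero] at e
  exact add_right_cancel e

theorem avg_mul_self {A : Type*} [CommGroup A] (a : A) (h : (orderOf a : F) ≠ 0) :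
    avg (F := F) a * avg a = avg a := by
  set s := ∑ i ∈ range (orderOf a), MonoidAlgebra.of F A (a ^ i) with hs
  have e : ∀ i : ℕ, MonoidAlgebra.of F A (a ^ i) * s = s := by
    intro i
    induction i with
    | zero => rw [pow_zero, map_one, one_mul]
    | succ i ih => rw [pow_succ, map_mul, mul_assoc, of_mul_sum, ih]
  have hss : s * s = (orderOf a : F) • s := by
    nth_rw 1 [hs]
    rw [sum_mul, sum_congr rfl (fun i _ => e i), sum_const, card_range, Nat.cast_smul_eq_nsmul]
  rw [avg, ← hs, smul_mul_smul_comm, hss, smul_smul, mul_assoc, inv_mul_cancel₀ h, mul_one]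

open Classical in
/-- A non-identity element of an abelian normal subgroup of a primitive group fixes no non-zero
vector. -/
theorem eq_zero_of_fixed (hirr : Irred ρ) (hprim : Primitive ρ) (hinj : Function.Injective ρ)
    (A : Subgroup Γ) [hA : A.Normal] (hcomm : ∀ x ∈ A, ∀ y ∈ A, x * y = y * x)
    {a : Γ} (ha : a ∈ A) (ha1 : a ≠ 1) {v : V} (hv : ρ a v = v) : v = 0 := by
  haveI : IsMulCommutative A := ⟨⟨fun x y => Subtype.ext (hcomm x x.2 y y.2)⟩⟩
  letI : CommGroup A := { (inferInstance : Group A) with mul_comm := fun x y => mul_comm' x y }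
  haveI := Fintype.ofFinite A
  let R := MonoidAlgebra F A
  let θ : R →ₐ[F] Module.End F V := MonoidAlgebra.lift F (Module.End F V) A (ρ.comp A.subtype)
  have hθof : ∀ x : A, θ (MonoidAlgebra.of F A x) = ρ x := fun x => by
    simp only [θ]; exact MonoidAlgebra.lift_of _ x
  have hord : ∀ x : A, (orderOf x : F) ≠ 0 := fun x => by
    rw [← Subgroup.orderOf_coe]; exact order_ne_zero hirr hinj A hcomm x.2
  have hidem : ∀ x : A, avg (F := F) x * avg x = avg x := fun x => avg_mul_self x (hord x)
  let atom : Finset A → R := fun S => (∏ x ∈ S, avg x) * ∏ x ∈ univ \ S, (1 - avg x)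
  have hsum : ∑ S, atom S = 1 := by
    have e := Finset.prod_add (fun x : A => avg (F := F) x) (fun x => 1 - avg x) univ
    simp only [add_sub_cancel, prod_const_one, powerset_univ] at e
    exact e.symm
  have horth : ∀ S T, S ≠ T → atom S * atom T = 0 := by
    intro S T hST
    obtain ⟨x, hx⟩ : ∃ x, ¬(x ∈ S ↔ x ∈ T) := by
      by_contra h; push Not at h; exact hST (Finset.ext h)
    have key : ∀ (S T : Finset A) x, x ∈ S → x ∉ T → atom S * atom T = 0 := by
      intro S T x hxS hxT
      have h1 : avg (F := F) x ∣ atom S := Dvd.dvd.mul_right (Finset.dvd_prod_of_mem _ hxS) _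
      have h2 : (1 - avg (F := F) x) ∣ atom T :=
        Dvd.dvd.mul_left (Finset.dvd_prod_of_mem (fun x => 1 - avg x) (by simp [hxT])) _
      have := mul_dvd_mul h1 h2
      rw [mul_sub, mul_one, hidem, sub_self] at this
      exact zero_dvd_iff.mp this
    by_cases hxS : x ∈ S
    · exact key S T x hxS fun hxT => hx (iff_of_true hxS hxT)
    · rw [mul_comm]
      exact key T S x (by tauto) hxS
  have hidem' : ∀ S, atom S * atom S = atom S := fun S => by
    conv_rhs => rw [← mul_one (atom S), ← hsum, mul_sum,
      Finset.sum_eq_single S (fun T _ hT => horth S T hT.symm) (by simp)]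
  let D : Finset A → Submodule F V := fun S => LinearMap.range (θ (atom S))
  have hfixD : ∀ S, ∀ w ∈ D S, θ (atom S) w = w := by
    rintro S _ ⟨u, rfl⟩
    rw [← Module.End.mul_apply, ← map_mul, hidem']
  have hzeroD : ∀ S T, S ≠ T → ∀ w ∈ D T, θ (atom S) w = 0 := by
    rintro S T hST _ ⟨u, rfl⟩
    rw [← Module.End.mul_apply, ← map_mul, horth S T hST, map_zero]; rfl
  have htop : ∀ w : V, w = ∑ S, θ (atom S) w := fun w => by
    rw [← LinearMap.sum_apply, ← map_sum, hsum, map_one]; rfl
  -- the conjugation action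
  let c : Γ → (A ≃* A) := fun g =>
    { toFun := fun x => ⟨g * x * g⁻¹, hA.conj_mem x x.2 g⟩
      invFun := fun x => ⟨g⁻¹ * x * g, by simpa using hA.conj_mem x x.2 g⁻¹⟩
      left_inv := fun x => Subtype.ext (by simp [mul_assoc])
      right_inv := fun x => Subtype.ext (by simp [mul_assoc])
      map_mul' := fun x y => Subtype.ext (by simp [mul_assoc]) }
  let s : Γ → (R →ₐ[F] R) := fun g => MonoidAlgebra.mapDomainAlgHom F F (c g).toMonoidHom
  have hs_of : ∀ g x, s g (MonoidAlgebra.of F A x) = MonoidAlgebra.of F A (c g x) := fun g x => by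
    show MonoidAlgebra.mapDomain (c g) (MonoidAlgebra.single x (1 : F)) = MonoidAlgebra.single (c g x) 1
    exact MonoidAlgebra.mapDomain_single
  have hs_avg : ∀ g x, s g (avg x) = avg (c g x) := fun g x => by
    have : orderOf (c g x) = orderOf x := orderOf_injective (c g).toMonoidHom (c g).injective x
    simp only [avg, map_smul, map_sum, hs_of, map_pow, this]
  have hs_atom : ∀ g S, s g (atom S) = atom (S.map (c g).toEquiv.toEmbedding) := fun g S => by
    simp only [atom, map_mul, map_prod, map_sub, map_one, hs_avg]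
    have e : univ \ S.map (c g).toEquiv.toEmbedding = (univ \ S).map (c g).toEquiv.toEmbedding := by
      rw [Finset.map_sdiff, Finset.map_univ_equiv]
    rw [e, Finset.prod_map, Finset.prod_map]
    rfl
  have hcomm' : ∀ g (r : R), ρ g * θ r = θ (s g r) * ρ g := by
    intro g r
    induction r using MonoidAlgebra.induction_on with
    | of x =>
      rw [hs_of, hθof, hθof, ← map_mul, ← map_mul]
      congr 1
      show g * (x : Γ) = g * x * g⁻¹ * g
      group
    | add x y hx hy => simp only [map_add, mul_add, add_mul, hx, hy]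
    | smul k x hx => simp only [map_smul, mul_smul_comm, smul_mul_assoc, hx]
  let act : Γ → Finset A → Finset A := fun g S => S.map (c g).toEquiv.toEmbedding
  have hmap : ∀ g S, (D S).map (ρ g) = D (act g S) := by
    intro g S
    rw [← LinearMap.range_comp]
    show LinearMap.range (ρ g * θ (atom S)) = _
    rw [hcomm', hs_atom]
    refine LinearMap.range_comp_of_range_eq_top _ (LinearMap.range_eq_top.mpr fun w => ⟨ρ g⁻¹ w, apply_inv g w⟩)
  have hactcomp : ∀ g h S, act g (act h S) = act (g * h) S := fun g h S => by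
    simp only [act, Finset.map_map]
    congr 1
    ext x
    simp [c, mul_assoc]
  have hact1 : ∀ S, act 1 S = S := fun S => by
    simp only [act]
    conv_rhs => rw [← Finset.map_refl (s := S)]
    congr 1
    ext x
    simp [c]
  have hinjg : ∀ g, Function.Injective (ρ g) := fun g x y h => by
    simpa only [inv_apply] using congrArg (ρ g⁻¹) h
  -- pick a non-zero component
  by_contra hv0
  obtain ⟨S₀, hS₀⟩ : ∃ S, D S ≠ ⊥ := by
    by_contra h
    push Not at h
    refine hv0 ((htop v).trans (Finset.sum_eq_zero fun S _ => ?_))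
    exact (Submodule.mem_bot F).mp (h S ▸ LinearMap.mem_range_self _ v)
  have htrans : ∀ S, D S ≠ ⊥ → ∃ g, act g S₀ = S := by
    intro S hS
    by_contra hno
    push Not at hno
    let W : Submodule F V := ⨆ g, D (act g S₀)
    have hW : ∀ g, W.map (ρ g) ≤ W := fun g => by
      rw [Submodule.map_iSup]
      refine iSup_le fun h => ?_
      rw [hmap, hactcomp]
      exact le_iSup (fun g => D (act g S₀)) (g * h)
    rcases hirr W hW with hW0 | hW1
    · exact hS₀ (le_bot_iff.mp (hW0 ▸ (le_of_eq (by rw [hact1])).trans (le_iSup (fun g => D (act g S₀)) 1)))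
    · have hker : W ≤ LinearMap.ker (θ (atom S)) := iSup_le fun g w hw =>
        hzeroD S _ (fun e => hno g e.symm) w hw
      rw [hW1, top_le_iff, LinearMap.ker_eq_top] at hker
      exact hS (by rw [show D S = LinearMap.range (θ (atom S)) from rfl, hker, LinearMap.range_zero])
  by_cases hone : ∀ S, D S ≠ ⊥ → S = S₀
  · -- a single component
    have hid : θ (atom S₀) = 1 := by
      ext w
      conv_rhs => rw [Module.End.one_apply, htop w]
      rw [Finset.sum_eq_single S₀]
      · intro S _ hS
        by_contra h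
        exact hS (hone S fun hb => h ((Submodule.mem_bot F).mp (hb ▸ LinearMap.mem_range_self _ w)))
      · simp
    let a' : A := ⟨a, ha⟩
    have hpow : ∀ i : ℕ, ρ (a ^ i) v = v := by
      intro i
      induction i with
      | zero => rw [pow_zero, map_one]; rfl
      | succ i ih => rw [pow_succ, map_mul, Module.End.mul_apply, hv, ih]
    have hav : θ (avg a') v = v := by
      simp only [avg, map_smul, map_sum, hθof, LinearMap.smul_apply, LinearMap.sum_apply,
        SubmonoidClass.coe_pow, show ((a' : A) : Γ) = a from rfl, hpow, sum_const, card_range]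
      rw [← Nat.cast_smul_eq_nsmul F, smul_smul, inv_mul_cancel₀ (hord a'), one_smul]
    by_cases hmem : a' ∈ S₀
    · have h1 : θ (avg a') = 1 := by
        have hd : avg (F := F) a' * atom S₀ = atom S₀ := by
          obtain ⟨r, hr⟩ : avg (F := F) a' ∣ atom S₀ :=
            Dvd.dvd.mul_right (Finset.dvd_prod_of_mem _ hmem) _
          rw [hr, ← mul_assoc, hidem]
        have := congrArg θ hd
        rwa [map_mul, hid, mul_one] at this
      have h2 : ρ a = 1 := by
        have e : MonoidAlgebra.of F A a' * avg a' = avg a' := by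
          rw [avg, mul_smul_comm, of_mul_sum]
        have := congrArg θ e
        rwa [map_mul, hθof, h1, mul_one] at this
      exact ha1 (hinj (h2.trans (map_one ρ).symm))
    · have h1 : θ (avg a') = 0 := by
        have hd : avg (F := F) a' * atom S₀ = 0 := by
          obtain ⟨r, hr⟩ : (1 - avg (F := F) a') ∣ atom S₀ :=
            Dvd.dvd.mul_left (Finset.dvd_prod_of_mem (fun x => 1 - avg x) (by simp [hmem])) _
          rw [hr, ← mul_assoc, mul_sub, mul_one, hidem, sub_self, zero_mul]
        have := congrArg θ hd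
        rwa [map_mul, hid, mul_one, map_zero] at this
      rw [h1, LinearMap.zero_apply] at hav
      exact hv0 hav.symm
  · push Not at hone
    obtain ⟨S₁, hS₁, hne⟩ := hone
    let ι := {S : Finset A // D S ≠ ⊥}
    let e : Fin (Fintype.card ι) ≃ ι := (Fintype.equivFin ι).symm
    refine hprim (Fintype.card ι) (fun i => D (e i).1) ?_ (fun i => (e i).2) (fun i j => ?_) ?_ ?_ ?_
    · rw [Nat.succ_le_iff, Fintype.one_lt_card_iff]
      exact ⟨⟨S₁, hS₁⟩, ⟨S₀, hS₀⟩, fun h => hne (congrArg Subtype.val h)⟩
    · have : ∀ g, Module.finrank F (D (act g S₀)) = Module.finrank F (D S₀) := fun g => by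
        rw [← hmap]
        exact (Submodule.equivMapOfInjective (ρ g) (hinjg g) (D S₀)).finrank_eq.symm
      obtain ⟨g, hg⟩ := htrans _ (e i).2
      obtain ⟨h, hh⟩ := htrans _ (e j).2
      show Module.finrank F (D (e i).1) = Module.finrank F (D (e j).1)
      rw [← hg, ← hh, this, this]
    · intro i
      rw [Submodule.disjoint_def]
      intro w hw hw'
      rw [← hfixD _ w hw]
      have : (⨆ (j) (_ : j ≠ i), D (e j).1) ≤ LinearMap.ker (θ (atom (e i).1)) :=
        iSup₂_le fun j hj u hu => hzeroD _ _ (fun h => hj (e.injective (Subtype.ext h)).symm) u hu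
      exact this hw'
    · rw [eq_top_iff]
      intro w _
      rw [htop w]
      refine Submodule.sum_mem _ fun S _ => ?_
      by_cases hS : D S = ⊥
      · have : θ (atom S) w ∈ D S := LinearMap.mem_range_self _ w
        rw [hS] at this
        rw [(Submodule.mem_bot F).mp this]
        exact Submodule.zero_mem _
      · exact le_iSup (fun i => D (e i).1) (e.symm ⟨S, hS⟩)
          (by rw [Equiv.apply_symm_apply]; exact LinearMap.mem_range_self _ w)
    · intro g
      let f : ι → ι := fun S => ⟨act g S.1, by
        rw [← hmap]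
        intro h
        exact S.2 (Submodule.map_injective_of_injective (hinjg g) (h.trans (Submodule.map_bot _).symm))⟩
      have hf : Function.Bijective f :=
        Finite.injective_iff_bijective.mp fun S T h => Subtype.ext <| by
          have := congrArg (fun Z : ι => Z.1) h
          exact Finset.map_injective _ this
      refine ⟨(e.trans (Equiv.ofBijective f hf)).trans e.symm, fun i => ?_⟩
      simp [hmap, f]

end Cfsg.Agent.Lib.FixSpace
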